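import Mathlib

/-!
Groups acting on a set of `n` points inducing at least the alternating group: images of normal subgroups, the
"commutator trick" for intersections, index bounds.
-/

set_option autoImplicit false
open Equiv

namespace Cfsg.Agent.H24.SubAlt

open Subgroup

/-! ### The alternating group -/

theorem alt_comm {k : ℕ} (hk : 5 ≤ k) : ⁅alternatingGroup (Fin k), alternatingGroup (Fin k)⁆ = alternatingGroup (Fin k) := by
  apply commutator_alternatingGroup_eq_self
  simpa using hk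

theorem alt_ne_bot {k : ℕ} (hk : 3 ≤ k) : alternatingGroup (Fin k) ≠ ⊥ := by
  intro h
  have : Nontrivial (Fin k) := Fin.nontrivial_iff_two_le.mpr (by omega)
  have h1 := two_mul_nat_card_alternatingGroup (α := Fin k)
  rw [h, Subgroup.card_bot] at h1
  have h2 : Nat.card (Perm (Fin k)) = k.factorial := by
    rw [Nat.card_eq_fintype_card, Fintype.card_perm, Fintype.card_fin]
  rw [h2] at h1
  have h3 : Nat.factorial 3 ≤ k.factorial := Nat.factorial_le hk
  have h4 : Nat.factorial 3 = 6 := rfl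
  omega

theorem card_alt {k : ℕ} (hk : 2 ≤ k) : 2 * Nat.card (alternatingGroup (Fin k)) = k.factorial := by
  have : Nontrivial (Fin k) := Fin.nontrivial_iff_two_le.mpr (by omega)
  rw [two_mul_nat_card_alternatingGroup, Nat.card_eq_fintype_card, Fintype.card_perm, Fintype.card_fin]

/-- an even permutation moving `b`, fixing `a` -/
theorem exists_alt_move {k : ℕ} (hk : 4 ≤ k) (a b : Fin k) (hab : a ≠ b) :
    ∃ τ ∈ alternatingGroup (Fin k), τ a = a ∧ τ b ≠ b := by
  classical
  have h1 : ∃ c : Fin k, c ∉ ({a, b} : Finset (Fin k)) := by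
    by_contra hc
    push Not at hc
    have h2 : (Finset.univ : Finset (Fin k)) ⊆ {a, b} := fun x _ => hc x
    have h3 := Finset.card_le_card h2
    have h4 : Finset.card ({a, b} : Finset (Fin k)) ≤ 2 := Finset.card_le_two
    simp at h3
    omega
  obtain ⟨c, hc⟩ := h1
  have h2 : ∃ e : Fin k, e ∉ ({a, b, c} : Finset (Fin k)) := by
    by_contra hc
    push Not at hc
    have h2 : (Finset.univ : Finset (Fin k)) ⊆ {a, b, c} := fun x _ => hc x
    have h3 := Finset.card_le_card h2
    have h4 : Finset.card ({a, b, c} : Finset (Fin k)) ≤ 3 := Finset.card_le_three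
    simp at h3
    omega
  obtain ⟨e, he⟩ := h2
  simp only [Finset.mem_insert, Finset.mem_singleton, not_or] at hc he
  refine ⟨swap b c * swap c e, ?_, ?_, ?_⟩
  · rw [Perm.mem_alternatingGroup, map_mul, Perm.sign_swap (Ne.symm hc.2), Perm.sign_swap (Ne.symm he.2.2)]
    simp
  · rw [Perm.mul_apply, swap_apply_of_ne_of_ne (Ne.symm hc.1) (Ne.symm he.1), swap_apply_of_ne_of_ne hab (Ne.symm hc.1)]
  · rw [Perm.mul_apply, swap_apply_of_ne_of_ne (Ne.symm hc.2) (Ne.symm he.2.1), swap_apply_left]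
    exact hc.2

theorem alt_cent {k : ℕ} (hk : 4 ≤ k) {σ : Perm (Fin k)} (h : ∀ τ ∈ alternatingGroup (Fin k), τ * σ = σ * τ) : σ = 1 := by
  ext a
  by_contra hne
  have hne' : a ≠ σ a := fun h1 => hne (by rw [← h1]; rfl)
  obtain ⟨τ, hτ, h1, h2⟩ := exists_alt_move hk a (σ a) hne'
  have h3 := congrArg (fun f : Perm (Fin k) => f a) (h τ hτ)
  simp only [Perm.mul_apply, h1] at h3
  exact h2 h3

theorem alt_trans {k : ℕ} (hk : 3 ≤ k) (a b : Fin k) : ∃ τ ∈ alternatingGroup (Fin k), τ a = b := by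
  classical
  by_cases hab : a = b
  · exact ⟨1, one_mem _, by simp [hab]⟩
  have h1 : ∃ c : Fin k, c ∉ ({a, b} : Finset (Fin k)) := by
    by_contra hc
    push Not at hc
    have h2 : (Finset.univ : Finset (Fin k)) ⊆ {a, b} := fun x _ => hc x
    have h3 := Finset.card_le_card h2
    have h4 : Finset.card ({a, b} : Finset (Fin k)) ≤ 2 := Finset.card_le_two
    simp at h3
    omega
  obtain ⟨c, hc⟩ := h1
  simp only [Finset.mem_insert, Finset.mem_singleton, not_or] at hc
  refine ⟨swap b c * swap a c, ?_, ?_⟩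
  · rw [Perm.mem_alternatingGroup, map_mul, Perm.sign_swap (Ne.symm hc.2), Perm.sign_swap (Ne.symm hc.1)]
    simp
  · rw [Perm.mul_apply, swap_apply_left, swap_apply_right]

/-- A subgroup normalised by the alternating group is trivial or contains it. -/
theorem alt_dich {k : ℕ} (hk : 5 ≤ k) (H : Subgroup (Perm (Fin k)))
    (h : alternatingGroup (Fin k) ≤ normalizer (H : Set (Perm (Fin k)))) : H = ⊥ ∨ alternatingGroup (Fin k) ≤ H := by
  have hs : IsSimpleGroup (alternatingGroup (Fin k)) := by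
    apply alternatingGroup.isSimpleGroup
    simpa using hk
  have hn : (H.subgroupOf (alternatingGroup (Fin k))).Normal := by
    constructor
    intro x hx y
    rw [mem_subgroupOf] at hx ⊢
    exact (mem_normalizer_iff.mp (h y.2) _).mp hx
  rcases hn.eq_bot_or_eq_top with h1 | h1
  · left
    rw [eq_bot_iff]
    intro x hx
    rw [mem_bot]
    apply alt_cent (by omega)
    intro τ hτ
    -- the commutator lies in both
    have h2 : τ * x * τ⁻¹ * x⁻¹ ∈ H := H.mul_mem ((mem_normalizer_iff.mp (h hτ) _).mp hx) (H.inv_mem hx)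
    have h3 : τ * x * τ⁻¹ * x⁻¹ ∈ alternatingGroup (Fin k) := by
      have : τ * x * τ⁻¹ * x⁻¹ = τ * (x * τ⁻¹ * x⁻¹) := by group
      rw [this]
      exact mul_mem hτ (alternatingGroup.normal.conj_mem _ (inv_mem hτ) _)
    have h4 : (⟨_, h3⟩ : alternatingGroup (Fin k)) ∈ H.subgroupOf (alternatingGroup (Fin k)) := h2
    rw [h1, mem_bot] at h4
    have h5 : τ * x * τ⁻¹ * x⁻¹ = 1 := congrArg Subtype.val h4
    calc τ * x = (τ * x * τ⁻¹ * x⁻¹) * (x * τ) := by group
      _ = x * τ := by rw [h5, one_mul]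
  · right
    exact subgroupOf_eq_top.mp h1

/-! ### Images of subgroups -/

variable {G : Type*} [Group G]

/-- the image of (the part in `D` of) a subgroup under a homomorphism defined on `D` -/
def img {D : Subgroup G} {P : Type*} [Group P] (q : D →* P) (H : Subgroup G) : Subgroup P := (H.subgroupOf D).map q

section
variable {D : Subgroup G} {P : Type*} [Group P] (q : D →* P)

theorem mem_img {H : Subgroup G} {x : P} : x ∈ img q H ↔ ∃ y : D, (y : G) ∈ H ∧ q y = x := by
  constructor
  · rintro ⟨y, hy, rfl⟩; exact ⟨y, hy, rfl⟩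
  · rintro ⟨y, hy, rfl⟩; exact ⟨y, hy, rfl⟩

theorem img_mono {H K : Subgroup G} (h : H ≤ K) : img q H ≤ img q K := by
  intro x hx
  obtain ⟨y, hy, rfl⟩ := (mem_img q).mp hx
  exact (mem_img q).mpr ⟨y, h hy, rfl⟩

theorem img_bot : img q ⊥ = ⊥ := by
  rw [eq_bot_iff]
  intro x hx
  obtain ⟨y, hy, rfl⟩ := (mem_img q).mp hx
  have : y = 1 := by
    apply Subtype.ext; rw [mem_bot] at hy; rw [hy]; rfl
  rw [this, map_one]; exact one_mem _

theorem img_self : img q D = q.range := by
  ext x
  rw [mem_img]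
  constructor
  · rintro ⟨y, _, rfl⟩; exact ⟨y, rfl⟩
  · rintro ⟨y, rfl⟩; exact ⟨y, y.2, rfl⟩

theorem img_eq_bot_iff {H : Subgroup G} : img q H = ⊥ ↔ ∀ y : D, (y : G) ∈ H → q y = 1 := by
  rw [eq_bot_iff]
  constructor
  · intro h y hy
    exact h ((mem_img q).mpr ⟨y, hy, rfl⟩)
  · intro h x hx
    obtain ⟨y, hy, rfl⟩ := (mem_img q).mp hx
    rw [h y hy]; exact one_mem _

theorem img_normalizer {H B : Subgroup G} (h : B ≤ normalizer (H : Set G)) :
    img q B ≤ normalizer (img q H : Set P) := by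
  intro x hx
  obtain ⟨b, hb, rfl⟩ := (mem_img q).mp hx
  have key : ∀ b : D, (b : G) ∈ B → ∀ y ∈ img q H, q b * y * (q b)⁻¹ ∈ img q H := by
    intro b hb y hy
    obtain ⟨z, hz, rfl⟩ := (mem_img q).mp hy
    refine (mem_img q).mpr ⟨b * z * b⁻¹, ?_, by simp⟩
    exact (mem_normalizer_iff.mp (h hb) _).mp hz
  rw [mem_normalizer_iff]
  intro y
  refine ⟨key b hb y, fun hy => ?_⟩
  have := key b⁻¹ (inv_mem hb) _ hy
  have e : q b⁻¹ * (q b * y * (q b)⁻¹) * (q b⁻¹)⁻¹ = y := by rw [map_inv]; group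
  rwa [e] at this

theorem card_img_le [Finite G] {H B : Subgroup G} (hB : B ≤ D) (h : img q H = ⊥) :
    Nat.card (img q B) ≤ H.relIndex B := by
  have h1 : (q.ker.map D.subtype).relIndex B = Nat.card (img q B) := by
    have e1 : Nat.card (img q B) = (q.ker).relIndex (B.subgroupOf D) := by
      rw [img, relIndex_ker]
    rw [e1]
    have e2 : B = (B.subgroupOf D).map D.subtype := by
      rw [subgroupOf_map_subtype, inf_eq_left.mpr hB]
    conv_lhs => rw [e2]
    exact relIndex_map_map_of_injective _ _ D.subtype_injective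
  rw [← h1]
  have h2 : H ⊓ B ≤ q.ker.map D.subtype := by
    intro x hx
    refine ⟨⟨x, hB hx.2⟩, ?_, rfl⟩
    exact (img_eq_bot_iff q).mp h _ hx.1
  rw [← inf_relIndex_right H B]
  apply Nat.le_of_dvd
  · exact Nat.pos_of_ne_zero (index_ne_zero_of_finite (H := (H ⊓ B).subgroupOf B))
  · exact relIndex_dvd_of_le_left _ h2

end

end Cfsg.Agent.H24.SubAlt
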