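import Cfsg.Agent.H24.SubAlt
import Cfsg.Agent.H94.TWIdx

/-!
The commutator trick for families of normal subgroups with alternating images.
-/

set_option autoImplicit false
open Equiv

namespace Cfsg.Agent.H24.SubAlt

open Subgroup Cfsg.Agent.H94

variable {G : Type*} [Group G]

/-- conjugate subgroup -/
abbrev cj (m : G) (H : Subgroup G) : Subgroup G := H.map (MulAut.conj m).toMonoidHom

theorem mem_cj {m x : G} {H : Subgroup G} : x ∈ cj m H ↔ m⁻¹ * x * m ∈ H := by
  constructor
  · rintro ⟨y, hy, rfl⟩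
    have : m⁻¹ * (MulAut.conj m).toMonoidHom y * m = y := by
      change m⁻¹ * (m * y * m⁻¹) * m = y
      group
    rw [this]; exact hy
  · intro h
    refine ⟨_, h, ?_⟩
    change m * (m⁻¹ * x * m) * m⁻¹ = x
    group

theorem cj_mono {m : G} {H K : Subgroup G} (h : H ≤ K) : cj m H ≤ cj m K := map_mono h

theorem cj_mul (a b : G) (H : Subgroup G) : cj a (cj b H) = cj (a * b) H := by
  ext x
  rw [mem_cj, mem_cj, mem_cj]
  have : b⁻¹ * (a⁻¹ * x * a) * b = (a * b)⁻¹ * x * (a * b) := by group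
  rw [this]

theorem cj_one (H : Subgroup G) : cj 1 H = H := by
  ext x; rw [mem_cj]; simp

theorem card_cj (m : G) (H : Subgroup G) : Nat.card (cj m H) = Nat.card H :=
  Nat.card_congr (H.equivMapOfInjective _ (MulAut.conj m).injective).symm.toEquiv

theorem cj_eq_of_norm {m : G} {H : Subgroup G} (h : m ∈ normalizer (H : Set G)) : cj m H = H := by
  ext x
  rw [mem_cj]
  have h1 := mem_normalizer_iff.mp (inv_mem h) x
  rw [inv_inv] at h1
  exact h1.symm

theorem cj_bot (m : G) : cj m (⊥ : Subgroup G) = ⊥ := by simp [cj]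

theorem cj_le_norm {m : G} {H K : Subgroup G} (h : K ≤ normalizer (H : Set G)) :
    cj m K ≤ normalizer (cj m H : Set G) := by
  intro x hx
  rw [mem_cj] at hx
  have h1 := h hx
  rw [mem_normalizer_iff] at h1 ⊢
  intro y
  rw [mem_cj, mem_cj, h1]
  have : m⁻¹ * x * m * (m⁻¹ * y * m) * (m⁻¹ * x * m)⁻¹ = m⁻¹ * (x * y * x⁻¹) * m := by group
  rw [this]

theorem relIndex_cj (m : G) (H K : Subgroup G) : (cj m H).relIndex (cj m K) = H.relIndex K :=
  relIndex_map_map_of_injective _ _ (MulAut.conj m).injective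

theorem norm_inf {B H K : Subgroup G} (h1 : B ≤ normalizer (H : Set G)) (h2 : B ≤ normalizer (K : Set G)) :
    B ≤ normalizer ((H ⊓ K : Subgroup G) : Set G) := by
  intro x hx
  rw [mem_normalizer_iff]
  intro y
  rw [mem_inf, mem_inf, mem_normalizer_iff.mp (h1 hx) y, mem_normalizer_iff.mp (h2 hx) y]

theorem norm_sInf {B : Subgroup G} {S : Set (Subgroup G)} (h : ∀ H ∈ S, B ≤ normalizer (H : Set G)) :
    B ≤ normalizer ((sInf S : Subgroup G) : Set G) := by
  intro x hx
  rw [mem_normalizer_iff]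
  intro y
  rw [mem_sInf, mem_sInf]
  exact forall₂_congr (fun H hH => mem_normalizer_iff.mp (h H hH hx) y)

theorem le_norm_cent {B H : Subgroup G} (h : B ≤ normalizer (H : Set G)) :
    B ≤ normalizer ((centralizer (H : Set G) : Subgroup G) : Set G) := by
  have key : ∀ x ∈ B, ∀ y ∈ centralizer (H : Set G), x * y * x⁻¹ ∈ centralizer (H : Set G) := by
    intro x hx y hy
    rw [mem_centralizer_iff] at hy ⊢
    intro z hz
    have h1 : x⁻¹ * z * x ∈ H := by
      have := (mem_normalizer_iff.mp (inv_mem (h hx)) z).mp hz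
      rwa [inv_inv] at this
    have h2 := hy _ h1
    calc z * (x * y * x⁻¹) = x * ((x⁻¹ * z * x) * y) * x⁻¹ := by group
      _ = x * (y * (x⁻¹ * z * x)) * x⁻¹ := by rw [h2]
      _ = x * y * x⁻¹ * z := by group
  intro x hx
  rw [mem_normalizer_iff]
  intro y
  refine ⟨key x hx y, fun hy => ?_⟩
  have := key x⁻¹ (inv_mem hx) _ hy
  have e : x⁻¹ * (x * y * x⁻¹) * x⁻¹⁻¹ = y := by group
  rwa [e] at this

/-- two subgroups normalising each other with trivial intersection commute -/
theorem comm_of_inf_bot {H K : Subgroup G} (h1 : H ≤ normalizer (K : Set G)) (h2 : K ≤ normalizer (H : Set G))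
    (h : H ⊓ K = ⊥) : H ≤ centralizer (K : Set G) := by
  intro x hx
  rw [mem_centralizer_iff]
  intro y hy
  have h3 : y * x * y⁻¹ * x⁻¹ ∈ H ⊓ K := by
    refine ⟨H.mul_mem ((mem_normalizer_iff.mp (h2 hy) x).mp hx) (inv_mem hx), ?_⟩
    have : y * x * y⁻¹ * x⁻¹ = y * (x * y⁻¹ * x⁻¹) := by group
    rw [this]
    exact K.mul_mem hy ((mem_normalizer_iff.mp (h1 hx) _).mp (inv_mem hy))
  rw [h, mem_bot] at h3
  calc y * x = (y * x * y⁻¹ * x⁻¹) * (x * y) := by group
    _ = x * y := by rw [h3, one_mul]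

section
variable {k : ℕ} {D : Subgroup G} (q : D →* Perm (Fin k))

theorem dich (hk : 5 ≤ k) {H B : Subgroup G} (h : B ≤ normalizer (H : Set G)) (hB : alternatingGroup (Fin k) ≤ img q B) :
    img q H = ⊥ ∨ alternatingGroup (Fin k) ≤ img q H :=
  alt_dich hk _ (hB.trans (img_normalizer q h))

theorem trick (hk : 5 ≤ k) {H1 H2 : Subgroup G}
    (h12 : H1 ≤ normalizer (H2 : Set G)) (h21 : H2 ≤ normalizer (H1 : Set G))
    (a1 : alternatingGroup (Fin k) ≤ img q H1) (a2 : alternatingGroup (Fin k) ≤ img q H2) :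
    alternatingGroup (Fin k) ≤ img q (H1 ⊓ H2) := by
  rw [← alt_comm hk, commutator_le]
  intro x hx y hy
  obtain ⟨u, hu, rfl⟩ := (mem_img q).mp (a1 hx)
  obtain ⟨v, hv, rfl⟩ := (mem_img q).mp (a2 hy)
  refine (mem_img q).mpr ⟨u * v * u⁻¹ * v⁻¹, ⟨?_, ?_⟩, by rw [map_mul, map_mul, map_mul, map_inv, map_inv]; rfl⟩
  · have e : ((u * v * u⁻¹ * v⁻¹ : D) : G) = (u : G) * ((v : G) * (u : G)⁻¹ * (v : G)⁻¹) := by
      simp [mul_assoc]
    rw [e]
    exact H1.mul_mem hu ((mem_normalizer_iff.mp (h21 hv) _).mp (inv_mem hu))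
  · have e : ((u * v * u⁻¹ * v⁻¹ : D) : G) = ((u : G) * (v : G) * (u : G)⁻¹) * (v : G)⁻¹ := by
      simp
    rw [e]
    exact H2.mul_mem ((mem_normalizer_iff.mp (h12 hu) _).mp hv) (inv_mem hv)

theorem family [Finite G] (hk : 5 ≤ k) {B : Subgroup G} (hB : alternatingGroup (Fin k) ≤ img q B) (S : Set (Subgroup G))
    (hS : ∀ H ∈ S, H ≤ B ∧ B ≤ normalizer (H : Set G) ∧ alternatingGroup (Fin k) ≤ img q H) :
    alternatingGroup (Fin k) ≤ img q (B ⊓ sInf S) := by
  have hfin : S.Finite := Set.toFinite S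
  induction S, hfin using Set.Finite.induction_on with
  | empty => simpa using hB
  | @insert a s ha hs ih =>
    have h1 := ih (fun H hH => hS H (Set.mem_insert_of_mem _ hH))
    obtain ⟨h2, h3, h4⟩ := hS a (Set.mem_insert _ _)
    have h5 : B ≤ normalizer ((B ⊓ sInf s : Subgroup G) : Set G) :=
      norm_inf le_normalizer (norm_sInf (fun H hH => (hS H (Set.mem_insert_of_mem _ hH)).2.1))
    have h6 := trick q hk (inf_le_left.trans h3) (h2.trans h5) h1 h4
    rw [sInf_insert]
    refine h6.trans (img_mono q ?_)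
    exact le_inf (inf_le_left.trans inf_le_left) (le_inf inf_le_right (inf_le_left.trans inf_le_right))

/-- If `N ≤ K ⊴ M` with `N ⊴ K` of small index and the core of `N` in `M` is trivial, then no homomorphism maps `N`
onto a group containing `A_k`. -/
theorem noAlt [Finite G] (hk : 5 ≤ k) {M K N : Subgroup G} (hKM : K ≤ M) (hK : M ≤ normalizer (K : Set G)) (NK : N ≤ K)
    (hn : K ≤ normalizer (N : Set G)) (c : ℕ) (hi : N.relIndex K ≤ c) (hc : 2 * c < k.factorial)
    (hcore : coreIn M N = ⊥) : ¬ alternatingGroup (Fin k) ≤ img q N := by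
  intro ha
  have hND : Nat.card (alternatingGroup (Fin k)) ≤ Nat.card (img q (N ⊓ D)) := by
    have e : img q (N ⊓ D) = img q N := by
      apply le_antisymm (img_mono q inf_le_left)
      intro x hx
      obtain ⟨y, hy, rfl⟩ := (mem_img q).mp hx
      exact (mem_img q).mpr ⟨y, ⟨hy, y.2⟩, rfl⟩
    rw [e]
    exact Nat.card_le_card_of_injective _ (inclusion_injective ha)
  have hS := family q hk ha {H | ∃ m ∈ M, H = cj m N ⊓ N} (by
    rintro _ ⟨m, hm, rfl⟩
    have h1 : K ≤ normalizer ((cj m N : Subgroup G) : Set G) := by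
      have := cj_le_norm (m := m) hn
      rwa [cj_eq_of_norm (hK hm)] at this
    have h2 : N ≤ normalizer ((cj m N ⊓ N : Subgroup G) : Set G) := norm_inf (NK.trans h1) le_normalizer
    refine ⟨inf_le_right, h2, ?_⟩
    rcases dich q hk h2 ha with h3 | h3
    · exfalso
      have h4 : Nat.card (img q (N ⊓ D)) ≤ (cj m N ⊓ N).relIndex (N ⊓ D) := card_img_le q inf_le_right h3
      have h5 : (cj m N ⊓ N).relIndex (N ⊓ D) ≤ (cj m N ⊓ N).relIndex N := by
        apply relIndex_le_of_le_right inf_le_left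
        exact index_ne_zero_of_finite
      have h6 : (cj m N ⊓ N).relIndex N ≤ (cj m N).relIndex K := by
        rw [inf_relIndex_right]
        apply relIndex_le_of_le_right NK
        exact index_ne_zero_of_finite
      have h7 : (cj m N).relIndex K = N.relIndex K := by
        conv_lhs => rw [← cj_eq_of_norm (hK hm)]
        exact relIndex_cj m N K
      have h8 := card_alt (k := k) (by omega)
      omega
    · exact h3)
  have hle : N ⊓ sInf {H | ∃ m ∈ M, H = cj m N ⊓ N} ≤ coreIn M N := by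
    intro x hx
    rw [mem_coreIn]
    refine ⟨hKM (NK hx.1), fun m hm => ?_⟩
    have h1 := mem_sInf.mp hx.2 _ ⟨m⁻¹, inv_mem hm, rfl⟩
    have h2 := mem_cj.mp h1.1
    rwa [inv_inv] at h2
  rw [hcore, le_bot_iff] at hle
  rw [hle, img_bot, le_bot_iff] at hS
  exact alt_ne_bot (by omega) hS

end

end Cfsg.Agent.H24.SubAlt
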