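import Cfsg.Agent.H24.SubAlt2

/-!
Two subgroups `M1, M2` acting on `n+1` points with a common point stabiliser `D`: the edge kernel is trivial.
-/

set_option autoImplicit false
open Equiv

namespace Cfsg.Agent.H24.SubAlt

open Subgroup Cfsg.Agent.H94

variable {G : Type*} [Group G]

theorem exists_psi {n : ℕ} {M D : Subgroup G} (DM : D ≤ M) (f : M →* Perm (Fin (n+1))) (i0 : Fin (n+1))
    (hD : ∀ x : M, (x:G) ∈ D ↔ f x i0 = i0) :
    ∃ ψ : D →* Perm (Fin n), (∀ x : D, ψ x = 1 ↔ f ⟨x, DM x.2⟩ = 1) ∧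
      (alternatingGroup (Fin (n+1)) ≤ f.range → alternatingGroup (Fin n) ≤ ψ.range) := by
  classical
  have hp : ∀ x : D, ∀ i : Fin (n+1), (f ⟨x, DM x.2⟩ i ≠ i0) ↔ i ≠ i0 := by
    intro x i
    have h1 : f ⟨x, DM x.2⟩ i0 = i0 := (hD ⟨x, DM x.2⟩).mp x.2
    rw [not_iff_not]
    constructor
    · intro h; rw [← h1] at h; exact (f ⟨x, DM x.2⟩).injective h
    · intro h; rw [h]; exact h1
  let F : D →* Perm {i : Fin (n+1) // i ≠ i0} :=
    { toFun := fun x => (f ⟨x, DM x.2⟩).subtypePerm (hp x)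
      map_one' := by
        ext i
        have : f ⟨((1 : D) : G), DM (1 : D).2⟩ = 1 := map_one f
        simp only [Perm.subtypePerm_apply, Perm.coe_one, id_eq]
        rw [this]; rfl
      map_mul' := by
        intro x y
        ext i
        have : f ⟨((x * y : D) : G), DM (x * y).2⟩ = f ⟨x, DM x.2⟩ * f ⟨y, DM y.2⟩ := by
          rw [← map_mul]; rfl
        simp only [Perm.subtypePerm_apply, Perm.mul_apply]
        rw [this]; rfl }
  let e : Fin n ≃ {i : Fin (n+1) // i ≠ i0} := finSuccAboveEquiv i0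
  refine ⟨(e.symm.permCongrHom).toMonoidHom.comp F, ?_, ?_⟩
  · intro x
    change e.symm.permCongrHom (F x) = 1 ↔ _
    rw [map_eq_one_iff _ (MulEquiv.injective _)]
    constructor
    · intro h
      ext i
      by_cases hi : i = i0
      · rw [hi, (hD ⟨x, DM x.2⟩).mp x.2]; rfl
      · have h1 := congrArg (fun (σ : Perm {i : Fin (n+1) // i ≠ i0}) => ((σ ⟨i, hi⟩ : {i : Fin (n+1) // i ≠ i0}) : Fin (n+1))) h
        have h2 : f ⟨x, DM x.2⟩ i = i := h1
        rw [h2]; rfl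
    · intro h
      ext i
      change ((f ⟨x, DM x.2⟩ i : Fin (n+1)) : ℕ) = _
      rw [h]; rfl
  · intro ha τ hτ
    let σ : Perm (Fin (n+1)) := Perm.ofSubtype (e.permCongr τ)
    have hσ : σ ∈ alternatingGroup (Fin (n+1)) := by
      rw [Perm.mem_alternatingGroup] at hτ ⊢
      rw [Perm.sign_ofSubtype, Perm.sign_permCongr, hτ]
    obtain ⟨x, hx⟩ := ha hσ
    have hσ0 : σ i0 = i0 := Perm.ofSubtype_apply_of_not_mem _ (by simp)
    have hxD : (x : G) ∈ D := by rw [hD, hx]; exact hσ0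
    refine ⟨⟨x, hxD⟩, ?_⟩
    change e.symm.permCongr (F ⟨x, hxD⟩) = τ
    have h1 : F ⟨x, hxD⟩ = e.permCongr τ := by
      ext i
      change ((f x i : Fin (n+1)) : ℕ) = _
      rw [hx]
      change ((Perm.ofSubtype (e.permCongr τ) i : Fin (n+1)) : ℕ) = _
      rw [Perm.ofSubtype_apply_coe]
    rw [h1]
    ext i
    simp

structure Side (n : ℕ) (M D K : Subgroup G) where
  f : M →* Perm (Fin (n+1))
  i0 : Fin (n+1)
  ψ : D →* Perm (Fin n)
  hf : ∀ x : M, f x = 1 ↔ (x:G) ∈ K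
  hD : ∀ x : M, (x:G) ∈ D ↔ f x i0 = i0
  hψ : ∀ x : D, ψ x = 1 ↔ (x:G) ∈ K
  DM : D ≤ M
  KD : K ≤ D
  Kn : M ≤ normalizer (K : Set G)
  idx : D.relIndex M = n + 1
  alt : alternatingGroup (Fin (n+1)) ≤ f.range → alternatingGroup (Fin n) ≤ ψ.range

namespace Side
variable {n : ℕ} {M D K : Subgroup G} (s : Side n M D K)
include s

theorem relIndex_M : K.relIndex M = Nat.card s.f.range := by
  have h1 : K.subgroupOf M = s.f.ker := by
    ext x; rw [mem_subgroupOf, MonoidHom.mem_ker, s.hf]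
  rw [relIndex, h1, index_ker]

theorem relIndex_D : K.relIndex D = Nat.card s.ψ.range := by
  have h1 : K.subgroupOf D = s.ψ.ker := by
    ext x; rw [mem_subgroupOf, MonoidHom.mem_ker, s.hψ]
  rw [relIndex, h1, index_ker]

theorem card_range : Nat.card s.ψ.range * (n + 1) = Nat.card s.f.range := by
  rw [← s.relIndex_D, ← s.relIndex_M, ← s.idx]
  exact relIndex_mul_relIndex _ _ _ s.KD s.DM

theorem card_psi_le : K.relIndex D ≤ n.factorial := by
  rw [s.relIndex_D]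
  have h1 : Nat.card s.ψ.range ∣ Nat.card (Perm (Fin n)) := card_subgroup_dvd_card _
  have h2 : Nat.card (Perm (Fin n)) = n.factorial := by
    rw [Nat.card_eq_fintype_card, Fintype.card_perm, Fintype.card_fin]
  rw [h2] at h1
  exact Nat.le_of_dvd (Nat.factorial_pos _) h1

theorem KM : K ≤ M := s.KD.trans s.DM

/-- normal subgroups of `M` with nontrivial image are transitive -/
theorem factor (hn : 5 ≤ n) {C : Subgroup G} (hC : alternatingGroup (Fin (n+1)) ≤ img s.f C) {m : G} (hm : m ∈ M) :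
    ∃ c ∈ C, c ∈ M ∧ c⁻¹ * m ∈ D := by
  obtain ⟨τ, hτ, h1⟩ := alt_trans (k := n+1) (by omega) s.i0 (s.f ⟨m, hm⟩ s.i0)
  obtain ⟨c, hc, h2⟩ := (mem_img s.f).mp (hC hτ)
  refine ⟨c, hc, c.2, ?_⟩
  have h3 := s.hD (c⁻¹ * ⟨m, hm⟩)
  apply h3.mpr
  rw [map_mul, map_inv, Perm.mul_apply, Perm.inv_eq_iff_eq, h2, h1]

end Side

theorem eq_of_le_card [Finite G] {H K : Subgroup G} (h : H ≤ K) (hc : Nat.card H = Nat.card K) : H = K :=
  Subgroup.eq_of_le_of_card_ge h hc.ge

theorem edge_kernel_bot [Finite G] {n : ℕ} (hn : 5 ≤ n) {M1 M2 D K1 K2 : Subgroup G} (s1 : Side n M1 D K1) (s2 : Side n M2 D K2)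
    (a1 : alternatingGroup (Fin (n+1)) ≤ s1.f.range) (a2 : alternatingGroup (Fin (n+1)) ≤ s2.f.range)
    (hTW : TW M1 M2) (g : G) (hK : cj g K1 = K2)
    (hab : ∀ X : Subgroup G, X ≤ D → D ≤ normalizer (X : Set G) → X ≤ centralizer (X : Set G) → X = ⊥) (hK1 : K1 ≠ ⊥)
    (hcore : coreIn M1 (K1 ⊓ K2) = ⊥) :
    K1 ⊓ K2 = ⊥ ∧ alternatingGroup (Fin (n+1)) ≤ img s1.f (M1 ⊓ centralizer (K1 : Set G)) ∧
      alternatingGroup (Fin n) ≤ img s2.ψ K1 ∧ K1 ⊓ centralizer (K1 : Set G) = ⊥ := by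
  set N := K1 ⊓ K2 with hN
  have hNK1 : N ≤ K1 := inf_le_left
  have hNK2 : N ≤ K2 := inf_le_right
  have hDK1 : D ≤ normalizer (K1:Set G) := s1.DM.trans s1.Kn
  have hDK2 : D ≤ normalizer (K2:Set G) := s2.DM.trans s2.Kn
  have hDN : D ≤ normalizer (N : Set G) := norm_inf hDK1 hDK2
  have hK1N : K1 ≤ normalizer (N : Set G) := s1.KD.trans hDN
  have hK2N : K2 ≤ normalizer (N : Set G) := s2.KD.trans hDN
  have hψ2 : alternatingGroup (Fin n) ≤ img s2.ψ D := by rw [img_self]; exact s2.alt a2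
  have hψ1 : alternatingGroup (Fin n) ≤ img s1.ψ D := by rw [img_self]; exact s1.alt a1
  have hcK : Nat.card K1 = Nat.card K2 := by rw [← hK, card_cj]
  have hcjN : ∀ m ∈ M1, cj m N ≤ K1 ∧ K1 ≤ normalizer ((cj m N : Subgroup G) : Set G) := by
    intro m hm
    have e := cj_eq_of_norm (s1.Kn hm)
    constructor
    · have := cj_mono (m := m) hNK1
      rwa [e] at this
    · have := cj_le_norm (m := m) hK1N
      rwa [e] at this
  -- image of K1 under ψ2
  have i1 : alternatingGroup (Fin n) ≤ img s2.ψ K1 := by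
    rcases dich s2.ψ hn hDK1 hψ2 with h | h
    · exfalso
      have h1 : K1 ≤ K2 := fun x hx => (s2.hψ ⟨x, s1.KD hx⟩).mp ((img_eq_bot_iff _).mp h ⟨x, s1.KD hx⟩ hx)
      apply hK1
      rw [eq_bot_iff, ← hcore]
      exact le_coreIn s1.KM (le_inf le_rfl h1) s1.Kn
    · exact h
  have i2 : alternatingGroup (Fin n) ≤ img s1.ψ K2 := by
    rcases dich s1.ψ hn hDK2 hψ1 with h | h
    · exfalso
      have h1 : K2 ≤ K1 := fun x hx => (s1.hψ ⟨x, s2.KD hx⟩).mp ((img_eq_bot_iff _).mp h ⟨x, s2.KD hx⟩ hx)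
      have h2 : K2 = K1 := eq_of_le_card h1 hcK.symm
      exact hK1 (hTW.eq_bot s1.KM (h2 ▸ s2.KM) s1.Kn (h2 ▸ s2.Kn))
    · exact h
  -- Claim A
  have hA : K1 ⊓ centralizer (N : Set G) ≠ ⊥ := by
    have hS := family s2.ψ hn i1 {H | ∃ m ∈ M1, H = cj m N ∧ H ≠ N} (by
      rintro _ ⟨m, hm, rfl, hne⟩
      obtain ⟨h1, h2⟩ := hcjN m hm
      refine ⟨h1, h2, ?_⟩
      rcases dich s2.ψ hn h2 i1 with h | h
      · exfalso
        have h3 : cj m N ≤ K2 := fun x hx =>
          (s2.hψ ⟨x, s1.KD (h1 hx)⟩).mp ((img_eq_bot_iff _).mp h ⟨x, s1.KD (h1 hx)⟩ hx)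
        exact hne (eq_of_le_card (le_inf h1 h3) (card_cj m N))
      · exact h)
    set S : Set (Subgroup G) := {H | ∃ m ∈ M1, H = cj m N ∧ H ≠ N} with hSdef
    set T := K1 ⊓ sInf S with hT
    have hTN : T ⊓ N = ⊥ := by
      rw [eq_bot_iff, ← hcore]
      intro x hx
      rw [mem_coreIn]
      refine ⟨s1.KM hx.1.1, fun m hm => ?_⟩
      have h1 : x ∈ cj m⁻¹ N := by
        by_cases he : cj m⁻¹ N = N
        · rw [he]; exact hx.2
        · exact mem_sInf.mp hx.1.2 _ ⟨m⁻¹, inv_mem hm, rfl, he⟩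
      have h2 := mem_cj.mp h1
      rwa [inv_inv] at h2
    have hTn : K1 ≤ normalizer (T : Set G) := by
      apply norm_inf le_normalizer
      apply norm_sInf
      rintro _ ⟨m, hm, rfl, _⟩
      exact (hcjN m hm).2
    have hTC : T ≤ centralizer (N : Set G) :=
      comm_of_inf_bot ((inf_le_left : T ≤ K1).trans hK1N) (hNK1.trans hTn) hTN
    intro hbot
    have h1 : T ≤ ⊥ := by rw [← hbot]; exact le_inf inf_le_left hTC
    rw [le_bot_iff] at h1
    rw [h1, img_bot, le_bot_iff] at hS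
    exact alt_ne_bot (by omega) hS
  -- Claim B
  have hB : ∃ m ∈ M1, cj g (cj m N) = N := by
    by_contra hcon
    push Not at hcon
    have hS := family s1.ψ hn i2 {H | ∃ m ∈ M1, H = cj g (cj m N)} (by
      rintro _ ⟨m, hm, rfl⟩
      obtain ⟨h1, h2⟩ := hcjN m hm
      have h3 : cj g (cj m N) ≤ K2 := by rw [← hK]; exact cj_mono h1
      have h4 : K2 ≤ normalizer ((cj g (cj m N) : Subgroup G) : Set G) := by
        rw [← hK]; exact cj_le_norm h2
      refine ⟨h3, h4, ?_⟩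
      rcases dich s1.ψ hn h4 i2 with h | h
      · exfalso
        have h5 : cj g (cj m N) ≤ K1 := fun x hx =>
          (s1.hψ ⟨x, s2.KD (h3 hx)⟩).mp ((img_eq_bot_iff _).mp h ⟨x, s2.KD (h3 hx)⟩ hx)
        exact hcon m hm (eq_of_le_card (le_inf h5 h3) ((card_cj _ _).trans (card_cj _ _)))
      · exact h)
    have hle : K2 ⊓ sInf {H | ∃ m ∈ M1, H = cj g (cj m N)} ≤ cj g (coreIn M1 N) := by
      intro x hx
      rw [mem_cj, mem_coreIn]
      have hx2 : x ∈ cj g K1 := by rw [hK]; exact hx.1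
      refine ⟨s1.KM (mem_cj.mp hx2), fun m hm => ?_⟩
      have h1 := mem_sInf.mp hx.2 _ ⟨m⁻¹, inv_mem hm, rfl⟩
      have h2 := mem_cj.mp (mem_cj.mp h1)
      rwa [inv_inv] at h2
    rw [hcore, cj_bot, le_bot_iff] at hle
    rw [hle, img_bot, le_bot_iff] at hS
    exact alt_ne_bot (by omega) hS
  have hB' : K2 ⊓ centralizer (N : Set G) ≠ ⊥ := by
    obtain ⟨m, hm, he⟩ := hB
    rw [cj_mul] at he
    obtain ⟨x, hxx⟩ := ne_bot_iff_exists_ne_one.mp hA
    have hx := x.2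
    have hx1 : (x : G) ≠ 1 := fun h => hxx (Subtype.ext h)
    intro hbot
    have h1 : g * m * (x : G) * (g * m)⁻¹ ∈ K2 ⊓ centralizer (N : Set G) := by
      refine mem_inf.mpr ⟨?_, ?_⟩
      · rw [← hK, mem_cj]
        have e : g⁻¹ * (g * m * (x : G) * (g * m)⁻¹) * g = m * x * m⁻¹ := by group
        rw [e]
        exact (mem_normalizer_iff.mp (s1.Kn hm) _).mp hx.1
      · rw [mem_centralizer_iff]
        intro y hy
        rw [SetLike.mem_coe, ← he, mem_cj] at hy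
        have h2 := mem_centralizer_iff.mp hx.2 _ hy
        calc y * (g * m * (x : G) * (g * m)⁻¹) = (g * m) * (((g * m)⁻¹ * y * (g * m)) * x) * (g * m)⁻¹ := by group
          _ = (g * m) * (x * ((g * m)⁻¹ * y * (g * m))) * (g * m)⁻¹ := by rw [h2]
          _ = g * m * (x : G) * (g * m)⁻¹ * y := by group
    rw [hbot, mem_bot] at h1
    apply hx1
    have e : (x : G) = (g * m)⁻¹ * (g * m * (x : G) * (g * m)⁻¹) * (g * m) := by group
    rw [e, h1]; group
  -- Claim C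
  set Y := K2 ⊓ centralizer (N : Set G) with hY
  have hYn : D ≤ normalizer (Y : Set G) := norm_inf hDK2 (le_norm_cent hDN)
  have hYK : Y ⊓ K1 = ⊥ := by
    apply hab
    · exact inf_le_right.trans s1.KD
    · exact norm_inf hYn hDK1
    · intro x hx
      rw [mem_centralizer_iff]
      intro y hy
      have h1 := mem_centralizer_iff.mp hx.1.2 y ⟨hy.2, hy.1.1⟩
      exact h1
  have hYC : Y ≤ centralizer (K1 : Set G) :=
    comm_of_inf_bot (((inf_le_left : Y ≤ K2).trans s2.KD).trans hDK1) (s1.KD.trans hYn) hYK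
  have hYM : Y ≤ M1 := ((inf_le_left : Y ≤ K2).trans s2.KD).trans s1.DM
  have hZ : K1 ⊓ centralizer (K1 : Set G) = ⊥ := by
    apply hab
    · exact inf_le_left.trans s1.KD
    · exact norm_inf hDK1 (le_norm_cent hDK1)
    · intro x hx
      rw [mem_centralizer_iff]
      intro y hy
      exact mem_centralizer_iff.mp hx.2 y hy.1
  have hC1n : M1 ≤ normalizer ((M1 ⊓ centralizer (K1 : Set G) : Subgroup G) : Set G) :=
    norm_inf le_normalizer (le_norm_cent s1.Kn)
  have hC1 : alternatingGroup (Fin (n+1)) ≤ img s1.f (M1 ⊓ centralizer (K1 : Set G)) := by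
    rcases dich s1.f (by omega) hC1n (by rw [img_self]; exact a1) with h | h
    · exfalso
      apply hB'
      rw [eq_bot_iff, ← hYK]
      intro x hx
      exact ⟨hx, (s1.hf ⟨x, hYM hx⟩).mp ((img_eq_bot_iff _).mp h ⟨x, hYM hx⟩ ⟨hYM hx, hYC hx⟩)⟩
    · exact h
  refine ⟨?_, hC1, i1, hZ⟩
  rw [eq_bot_iff, ← hcore]
  apply le_coreIn (hNK1.trans s1.KM) le_rfl
  intro m hm
  obtain ⟨c, hc, hcM, hcD⟩ := s1.factor hn hC1 hm
  have h1 : c ∈ normalizer (N : Set G) := by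
    have h2 : c ∈ centralizer (N : Set G) := by
      rw [mem_centralizer_iff]
      intro y hy
      exact mem_centralizer_iff.mp hc.2 y (hNK1 hy)
    exact centralizer_le_normalizer _ h2
  have h3 := mul_mem h1 (hDN hcD)
  rwa [mul_inv_cancel_left] at h3

end Cfsg.Agent.H24.SubAlt
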