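import Cfsg.Agent.H24.SubAlt3

/-!
The structure of `M1`.
-/

set_option autoImplicit false
open Equiv

namespace Cfsg.Agent.H24.SubAlt

open Subgroup Cfsg.Agent.H94

variable {G : Type*} [Group G]

theorem card_perm_fin (k : ℕ) : Nat.card (Perm (Fin k)) = k.factorial := by
  rw [Nat.card_eq_fintype_card, Fintype.card_perm, Fintype.card_fin]

theorem card_ge_of_alt {k : ℕ} (hk : 2 ≤ k) {H : Subgroup (Perm (Fin k))} (h : alternatingGroup (Fin k) ≤ H) :
    k.factorial ≤ 2 * Nat.card H := by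
  have h1 := card_alt hk
  have h2 : Nat.card (alternatingGroup (Fin k)) ≤ Nat.card H := Nat.card_le_card_of_injective _ (inclusion_injective h)
  omega

theorem alt_of_card {k : ℕ} {H : Subgroup (Perm (Fin k))} (h : k.factorial ≤ 2 * Nat.card H) :
    alternatingGroup (Fin k) ≤ H := by
  apply Perm.alternatingGroup_le_of_index_le_two
  have h1 := H.card_mul_index
  rw [card_perm_fin] at h1
  have h2 : Nat.card H * H.index ≤ Nat.card H * 2 := by rw [h1]; omega
  exact Nat.le_of_mul_le_mul_left h2 Nat.card_pos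

theorem alt_or_top {k : ℕ} (hk : 2 ≤ k) {H : Subgroup (Perm (Fin k))} (h : alternatingGroup (Fin k) ≤ H) :
    (H = alternatingGroup (Fin k) ∧ 2 * Nat.card H = k.factorial) ∨ (H = ⊤ ∧ Nat.card H = k.factorial) := by
  have h1 := H.card_mul_index
  rw [card_perm_fin] at h1
  have h2 := card_ge_of_alt hk h
  have hpos : 0 < Nat.card H := Nat.card_pos
  have h3 : H.index ≤ 2 := by
    have h2 : Nat.card H * H.index ≤ Nat.card H * 2 := by rw [h1]; omega
    exact Nat.le_of_mul_le_mul_left h2 hpos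
  have h4 : H.index ≠ 0 := index_ne_zero_of_finite
  have h5 : H.index = 1 ∨ H.index = 2 := by omega
  rcases h5 with h5 | h5
  · right
    exact ⟨index_eq_one.mp h5, by rw [← h1, h5, mul_one]⟩
  · left
    exact ⟨Perm.eq_alternatingGroup_of_index_eq_two h5, by rw [← h1, h5, mul_comm]⟩

theorem other_side [Finite G] {n : ℕ} (hn : 5 ≤ n) {M1 M2 D K1 K2 : Subgroup G} (s1 : Side n M1 D K1) (s2 : Side n M2 D K2)
    (a1 : alternatingGroup (Fin (n+1)) ≤ s1.f.range) (g : G) (hM : cj g M1 = M2)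
    (hd : coreIn M1 (K1 ⊓ K2) = ⊥ ∨ coreIn M2 (K1 ⊓ K2) = ⊥) :
    alternatingGroup (Fin (n+1)) ≤ s2.f.range ∧ cj g K1 = K2 ∧ Nat.card s1.f.range = Nat.card s2.f.range := by
  have hfac : (n+1).factorial = (n+1) * n.factorial := Nat.factorial_succ n
  have hfp : 0 < n.factorial := Nat.factorial_pos n
  have hf6 : 6 * n.factorial ≤ (n+1).factorial := by rw [hfac]; exact Nat.mul_le_mul_right _ (by omega)
  -- the homomorphism
  let ε : M2 →* M1 := ((MulAut.conj g⁻¹).toMonoidHom.comp M2.subtype).codRestrict M1 (by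
    intro y
    have h1 : (y : G) ∈ cj g M1 := by rw [hM]; exact y.2
    have h2 := mem_cj.mp h1
    change g⁻¹ * (y : G) * g⁻¹⁻¹ ∈ M1
    rwa [inv_inv])
  have hε : ∀ y : M2, ((ε y : M1) : G) = g⁻¹ * (y : G) * g := by
    intro y
    change g⁻¹ * (y : G) * g⁻¹⁻¹ = _
    rw [inv_inv]
  let q : M2 →* Perm (Fin (n+1)) := s1.f.comp ε
  have hq1 : ∀ y : M2, q y = 1 ↔ (y : G) ∈ cj g K1 := by
    intro y
    change s1.f (ε y) = 1 ↔ _
    rw [s1.hf, hε, mem_cj]
  have hqr : alternatingGroup (Fin (n+1)) ≤ img q M2 := by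
    intro σ hσ
    obtain ⟨x, rfl⟩ := a1 hσ
    rw [mem_img]
    have h1 : g * (x : G) * g⁻¹ ∈ M2 := by
      rw [← hM, mem_cj]
      have : g⁻¹ * (g * (x : G) * g⁻¹) * g = x := by group
      rw [this]; exact x.2
    refine ⟨⟨_, h1⟩, h1, ?_⟩
    change s1.f (ε ⟨_, h1⟩) = s1.f x
    congr 1
    apply Subtype.ext
    rw [hε]
    group
  set N := K1 ⊓ K2 with hN
  have hDK1 : D ≤ normalizer (K1:Set G) := s1.DM.trans s1.Kn
  have hDK2 : D ≤ normalizer (K2:Set G) := s2.DM.trans s2.Kn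
  have hDN : D ≤ normalizer (N : Set G) := norm_inf hDK1 hDK2
  have hi1 : N.relIndex K1 ≤ n.factorial := by
    have e : N.relIndex K1 = K2.relIndex K1 := inf_relIndex_left _ _
    rw [e]
    exact (relIndex_le_of_le_right s1.KD index_ne_zero_of_finite).trans s2.card_psi_le
  have hi2 : N.relIndex K2 ≤ n.factorial := by
    have e : N.relIndex K2 = K1.relIndex K2 := inf_relIndex_right _ _
    rw [e]
    exact (relIndex_le_of_le_right s2.KD index_ne_zero_of_finite).trans s1.card_psi_le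
  have hqK2 : img q K2 = ⊥ := by
    rcases dich q (by omega) s2.Kn hqr with h | h
    · exact h
    exfalso
    rcases dich q (by omega) (s2.KD.trans hDN) h with h1 | h1
    · have h2 := card_img_le q s2.KM h1
      have h3 := card_ge_of_alt (by omega) h
      omega
    · rcases hd with hd | hd
      · exact noAlt q (by omega) s1.KM s1.Kn inf_le_left (s1.KD.trans hDN) _ hi1 (by omega) hd h1
      · exact noAlt q (by omega) s2.KM s2.Kn inf_le_right (s2.KD.trans hDN) _ hi2 (by omega) hd h1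
  have hK2 : K2 ≤ cj g K1 := fun y hy => (hq1 ⟨y, s2.KM hy⟩).mp ((img_eq_bot_iff q).mp hqK2 ⟨y, s2.KM hy⟩ hy)
  have hKM : cj g K1 ≤ M2 := by rw [← hM]; exact cj_mono s1.KM
  have c1 : (cj g K1).relIndex M2 = Nat.card s1.f.range := by
    rw [← s1.relIndex_M, ← hM]; exact relIndex_cj g _ _
  have c2 : K2.relIndex (cj g K1) * (cj g K1).relIndex M2 = Nat.card s2.f.range := by
    rw [← s2.relIndex_M]; exact relIndex_mul_relIndex _ _ _ hK2 hKM
  have c3 : (n+1).factorial ≤ 2 * Nat.card s1.f.range := card_ge_of_alt (by omega) a1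
  have c4 : 0 < K2.relIndex (cj g K1) := Nat.pos_of_ne_zero index_ne_zero_of_finite
  have c5 : Nat.card s1.f.range ≤ Nat.card s2.f.range := by
    rw [← c2, c1]; exact Nat.le_mul_of_pos_left _ c4
  have a2 : alternatingGroup (Fin (n+1)) ≤ s2.f.range := alt_of_card (by omega)
  have hKn : M2 ≤ normalizer ((cj g K1 : Subgroup G) : Set G) := by
    rw [← hM]; exact cj_le_norm s1.Kn
  have hK : cj g K1 = K2 := by
    rcases dich s2.f (by omega) hKn (by rw [img_self]; exact a2) with h | h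
    · apply le_antisymm _ hK2
      intro x hx
      exact (s2.hf ⟨x, hKM hx⟩).mp ((img_eq_bot_iff _).mp h ⟨x, hKM hx⟩ hx)
    · exfalso
      have h1 : img s2.f K2 = ⊥ := (img_eq_bot_iff _).mpr (fun y hy => (s2.hf y).mpr hy)
      have h2 := card_img_le s2.f hKM h1
      have h3 := card_ge_of_alt (by omega) h
      have h4 : Nat.card s2.f.range ≤ (n+1).factorial := by
        rw [← card_perm_fin]; exact card_le_card_group _
      have h5 : (n+1).factorial ≤ 2 * K2.relIndex (cj g K1) := by omega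
      have h6 : K2.relIndex (cj g K1) * Nat.card s1.f.range ≤ (n+1).factorial := by
        rw [← c1, c2]; exact h4
      have h7 : (n+1).factorial * (n+1).factorial ≤ 4 * (n+1).factorial := by
        calc (n+1).factorial * (n+1).factorial ≤ (2 * K2.relIndex (cj g K1)) * (2 * Nat.card s1.f.range) := Nat.mul_le_mul h5 c3
          _ = 4 * (K2.relIndex (cj g K1) * Nat.card s1.f.range) := by ring
          _ ≤ 4 * (n+1).factorial := Nat.mul_le_mul_left _ h6
      have h8 := Nat.le_of_mul_le_mul_right h7 (Nat.factorial_pos _)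
      omega
  refine ⟨a2, hK, ?_⟩
  rw [← s2.relIndex_M, ← c1, hK]

/-! ### Subgroups of `S_{n+1} × S_n` containing `A_{n+1} × A_n` -/

/-- the possible structures -/
def Concl (n : ℕ) (M : Type*) [Group M] (c : ℕ) : Prop :=
  (2 * c = (n+1).factorial ∧ Nonempty (M ≃* alternatingGroup (Fin (n+1)) × alternatingGroup (Fin n))) ∨
  (c = (n+1).factorial ∧ (Nonempty (M ≃* Perm (Fin (n+1)) × Perm (Fin n)) ∨
    Nonempty (M ≃* ((Perm.sign.comp (MonoidHom.fst (Perm (Fin (n+1))) (Perm (Fin n)))) *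
         (Perm.sign.comp (MonoidHom.snd (Perm (Fin (n+1))) (Perm (Fin n))))).ker)))

theorem sub_cases {n : ℕ} (R : Subgroup (Perm (Fin (n+1)) × Perm (Fin n)))
    (r1 : ∀ σ ∈ alternatingGroup (Fin (n+1)), (σ, (1 : Perm (Fin n))) ∈ R)
    (r2 : ∀ τ ∈ alternatingGroup (Fin n), ((1 : Perm (Fin (n+1))), τ) ∈ R)
    (r3 : ∀ σ : Perm (Fin (n+1)), ∃ τ, (σ, τ) ∈ R) (r4 : ∀ τ : Perm (Fin n), ∃ σ, (σ, τ) ∈ R) (hn : 2 ≤ n) :
    R = ⊤ ∨ R = ((Perm.sign.comp (MonoidHom.fst (Perm (Fin (n+1))) (Perm (Fin n)))) *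
         (Perm.sign.comp (MonoidHom.snd (Perm (Fin (n+1))) (Perm (Fin n))))).ker := by
  have key : ∀ σ τ σ' τ', (σ, τ) ∈ R → Perm.sign σ' = Perm.sign σ → Perm.sign τ' = Perm.sign τ → (σ', τ') ∈ R := by
    intro σ τ σ' τ' h h1 h2
    have e : ((σ', τ') : Perm (Fin (n+1)) × Perm (Fin n)) = (σ' * σ⁻¹, 1) * (1, τ' * τ⁻¹) * (σ, τ) := by
      ext <;> simp
    rw [e]
    refine R.mul_mem (R.mul_mem (r1 _ ?_) (r2 _ ?_)) h
    · rw [Perm.mem_alternatingGroup, map_mul, map_inv, h1, mul_inv_cancel]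
    · rw [Perm.mem_alternatingGroup, map_mul, map_inv, h2, mul_inv_cancel]
  obtain ⟨σ₀, hσ₀⟩ : ∃ σ : Perm (Fin (n+1)), Perm.sign σ = -1 := by
    have h01 : (⟨0, by omega⟩ : Fin (n+1)) ≠ ⟨1, by omega⟩ := by simp
    exact ⟨swap _ _, Perm.sign_swap h01⟩
  obtain ⟨τ₀, hτ₀⟩ : ∃ τ : Perm (Fin n), Perm.sign τ = -1 := by
    have h01 : (⟨0, by omega⟩ : Fin n) ≠ ⟨1, by omega⟩ := by simp
    exact ⟨swap _ _, Perm.sign_swap h01⟩
  obtain ⟨τ₁, h1⟩ := r3 σ₀
  obtain ⟨σ₁, h2⟩ := r4 τ₀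
  by_cases hex : ∀ σ τ, (σ, τ) ∈ R → Perm.sign σ = Perm.sign τ
  · right
    ext ⟨σ, τ⟩
    rw [MonoidHom.mem_ker]
    change _ ↔ Perm.sign σ * Perm.sign τ = 1
    constructor
    · intro h
      rw [hex σ τ h]
      exact Int.units_mul_self _
    · intro h
      have h3 : Perm.sign σ = Perm.sign τ := by
        rw [← mul_one (Perm.sign σ), ← Int.units_mul_self (Perm.sign τ), ← mul_assoc, h, one_mul]
      rcases Int.units_eq_one_or (Perm.sign σ) with h4 | h4
      · apply key 1 1 σ τ R.one_mem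
        · rw [h4, map_one]
        · rw [← h3, h4, map_one]
      · apply key σ₀ τ₁ σ τ h1
        · rw [h4, hσ₀]
        · rw [← hex σ₀ τ₁ h1, ← h3, h4, hσ₀]
  · left
    push Not at hex
    obtain ⟨σ₂, τ₂, h3, h4⟩ := hex
    -- both (1,-1) and (-1,1) classes
    have hA : (1, τ₀) ∈ R ∧ (σ₀, 1) ∈ R := by
      rcases Int.units_eq_one_or (Perm.sign σ₂) with h5 | h5
      · have h6 : Perm.sign τ₂ = -1 := by
          rcases Int.units_eq_one_or (Perm.sign τ₂) with h6 | h6
          · exact absurd (h5.trans h6.symm) h4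
          · exact h6
        have h7 : (1, τ₀) ∈ R := key σ₂ τ₂ 1 τ₀ h3 (by rw [h5, map_one]) (by rw [h6, hτ₀])
        refine ⟨h7, ?_⟩
        rcases Int.units_eq_one_or (Perm.sign τ₁) with h8 | h8
        · exact key σ₀ τ₁ σ₀ 1 h1 rfl (by rw [h8, map_one])
        · have h9 := R.mul_mem h1 h7
          refine key _ _ σ₀ 1 h9 (by simp) ?_
          change Perm.sign 1 = Perm.sign (τ₁ * τ₀)
          rw [map_mul, h8, hτ₀]; simp
      · have h6 : Perm.sign τ₂ = 1 := by
          rcases Int.units_eq_one_or (Perm.sign τ₂) with h6 | h6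
          · exact h6
          · exact absurd (h5.trans h6.symm) h4
        have h7 : (σ₀, 1) ∈ R := key σ₂ τ₂ σ₀ 1 h3 (by rw [h5, hσ₀]) (by rw [h6, map_one])
        refine ⟨?_, h7⟩
        rcases Int.units_eq_one_or (Perm.sign σ₁) with h8 | h8
        · exact key σ₁ τ₀ 1 τ₀ h2 (by rw [h8, map_one]) rfl
        · have h9 := R.mul_mem h2 h7
          refine key _ _ 1 τ₀ h9 ?_ (by simp)
          change Perm.sign 1 = Perm.sign (σ₁ * σ₀)
          rw [map_mul, h8, hσ₀]; simp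
    rw [eq_top_iff]
    rintro ⟨σ, τ⟩ _
    have e : ((σ, τ) : Perm (Fin (n+1)) × Perm (Fin n)) = (σ, 1) * (1, τ) := by ext <;> simp
    rw [e]
    apply R.mul_mem
    · rcases Int.units_eq_one_or (Perm.sign σ) with h5 | h5
      · exact r1 σ h5
      · exact key σ₀ 1 σ 1 hA.2 (by rw [h5, hσ₀]) rfl
    · rcases Int.units_eq_one_or (Perm.sign τ) with h5 | h5
      · exact r2 τ h5
      · exact key 1 τ₀ 1 τ hA.1 rfl (by rw [h5, hτ₀])

end Cfsg.Agent.H24.SubAlt
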