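import Cfsg.Agent.H24.SubAlt4

/-!
The structure of `M1`, continued.
-/

set_option autoImplicit false
open Equiv

namespace Cfsg.Agent.H24.SubAlt

open Subgroup Cfsg.Agent.H94

variable {G : Type*} [Group G]

theorem struct_of_core [Finite G] {n : ℕ} (hn : 5 ≤ n) {M1 M2 D K1 K2 : Subgroup G} (s1 : Side n M1 D K1) (s2 : Side n M2 D K2)
    (a1 : alternatingGroup (Fin (n+1)) ≤ s1.f.range) (a2 : alternatingGroup (Fin (n+1)) ≤ s2.f.range)
    (hcr : Nat.card s1.f.range = Nat.card s2.f.range)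
    (hTW : TW M1 M2) (g : G) (hK : cj g K1 = K2)
    (hab : ∀ X : Subgroup G, X ≤ D → D ≤ normalizer (X : Set G) → X ≤ centralizer (X : Set G) → X = ⊥) (hK1 : K1 ≠ ⊥)
    (hcore : coreIn M1 (K1 ⊓ K2) = ⊥) : Concl n M1 (Nat.card s1.f.range) := by
  obtain ⟨hN, hC1, i1, hZ⟩ := edge_kernel_bot hn s1 s2 a1 a2 hTW g hK hab hK1 hcore
  have hmem : ∀ (m : M1) (k : K1), (m : G) * k * (m : G)⁻¹ ∈ K1 := fun m k => (mem_normalizer_iff.mp (s1.Kn m.2) _).mp k.2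
  let ψK : K1 →* Perm (Fin n) := s2.ψ.comp (inclusion s1.KD)
  have hψK : ∀ k : K1, ψK k = s2.ψ ⟨k, s1.KD k.2⟩ := fun k => rfl
  let P : M1 → Perm (Fin n) → Prop := fun m σ => ∀ k : K1, ψK ⟨(m : G) * k * (m : G)⁻¹, hmem m k⟩ = σ * ψK k * σ⁻¹
  have huniq : ∀ m σ σ', P m σ → P m σ' → σ = σ' := by
    intro m σ σ' h1 h2
    have h3 : σ'⁻¹ * σ = 1 := by
      apply alt_cent (k := n) (by omega)
      intro τ hτ
      obtain ⟨y, hy, hyτ⟩ := (mem_img _).mp (i1 hτ)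
      have h4 : ψK ⟨y, hy⟩ = τ := hyτ
      have h5 := (h1 ⟨y, hy⟩).symm.trans (h2 ⟨y, hy⟩)
      rw [h4] at h5
      calc τ * (σ'⁻¹ * σ) = σ'⁻¹ * (σ' * τ * σ'⁻¹) * σ := by group
        _ = σ'⁻¹ * (σ * τ * σ⁻¹) * σ := by rw [h5]
        _ = σ'⁻¹ * σ * τ := by group
    rw [inv_mul_eq_one] at h3
    exact h3.symm
  have hPD : ∀ (x : D), P ⟨x, s1.DM x.2⟩ (s2.ψ x) := by
    intro x k
    rw [hψK, hψK, ← map_inv, ← map_mul, ← map_mul]
    rfl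
  have hPC : ∀ (c : M1), (c : G) ∈ M1 ⊓ centralizer (K1 : Set G) → P c 1 := by
    intro c hc k
    have h1 : (c : G) * k * (c : G)⁻¹ = k := by
      rw [← mem_centralizer_iff.mp hc.2 k k.2]; group
    have h2 : (⟨(c : G) * k * (c : G)⁻¹, hmem c k⟩ : K1) = k := Subtype.ext h1
    rw [h2]; simp
  have hPmul : ∀ m m' σ σ', P m σ → P m' σ' → P (m * m') (σ * σ') := by
    intro m m' σ σ' h1 h2 k
    have h3 : (⟨((m * m' : M1) : G) * k * ((m * m' : M1) : G)⁻¹, hmem (m * m') k⟩ : K1) =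
        ⟨(m : G) * ((⟨(m' : G) * k * (m' : G)⁻¹, hmem m' k⟩ : K1) : G) * (m : G)⁻¹, hmem m ⟨(m' : G) * k * (m' : G)⁻¹, hmem m' k⟩⟩ := by
      apply Subtype.ext
      simp only [Subgroup.coe_mul, mul_inv_rev]
      group
    rw [h3, h1, h2]
    group
  have hex : ∀ m : M1, ∃ σ, P m σ := by
    intro m
    obtain ⟨c, hc, hcM, hcD⟩ := s1.factor hn hC1 m.2
    have h1 := hPmul ⟨c, hcM⟩ ⟨_, s1.DM hcD⟩ _ _ (hPC ⟨c, hcM⟩ hc) (hPD ⟨_, hcD⟩)
    have h2 : (⟨c, hcM⟩ : M1) * ⟨_, s1.DM hcD⟩ = m := by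
      apply Subtype.ext
      change c * (c⁻¹ * (m : G)) = m
      group
    rw [h2] at h1
    exact ⟨_, h1⟩
  choose χ0 hχ0 using hex
  let χ : M1 →* Perm (Fin n) := MonoidHom.mk' χ0 (fun a b => huniq _ _ _ (hχ0 (a * b)) (hPmul _ _ _ _ (hχ0 a) (hχ0 b)))
  have hχ : ∀ m σ, P m σ → χ m = σ := fun m σ h => huniq _ _ _ (hχ0 m) h
  let Φ : M1 →* Perm (Fin (n+1)) × Perm (Fin n) := s1.f.prod χ
  have hΦ : Function.Injective Φ := by
    rw [injective_iff_map_eq_one]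
    intro m hm
    have h1 : s1.f m = 1 := congrArg Prod.fst hm
    have h2 : χ m = 1 := congrArg Prod.snd hm
    have h3 : (m : G) ∈ K1 := (s1.hf m).mp h1
    have h4 : χ m = s2.ψ ⟨m, s1.KD h3⟩ := hχ _ _ (hPD ⟨m, s1.KD h3⟩)
    rw [h4] at h2
    have h5 : (m : G) ∈ K1 ⊓ K2 := ⟨h3, (s2.hψ _).mp h2⟩
    rw [hN, mem_bot] at h5
    exact Subtype.ext h5
  let e0 : M1 ≃* Φ.range := MonoidHom.ofInjective hΦ
  have r1 : ∀ σ ∈ alternatingGroup (Fin (n+1)), (σ, (1 : Perm (Fin n))) ∈ Φ.range := by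
    intro σ hσ
    obtain ⟨c, hc, h1⟩ := (mem_img _).mp (hC1 hσ)
    refine ⟨c, ?_⟩
    change (s1.f c, χ c) = _
    rw [h1, hχ _ _ (hPC c hc)]
  have r2 : ∀ τ ∈ alternatingGroup (Fin n), ((1 : Perm (Fin (n+1))), τ) ∈ Φ.range := by
    intro τ hτ
    obtain ⟨y, hy, h1⟩ := (mem_img _).mp (i1 hτ)
    refine ⟨⟨y, s1.KM hy⟩, ?_⟩
    change (s1.f ⟨y, s1.KM hy⟩, χ ⟨y, s1.KM hy⟩) = _
    rw [(s1.hf _).mpr hy, hχ _ _ (hPD y), h1]
  have r5 : ∀ m : M1, χ m ∈ s2.ψ.range := by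
    intro m
    obtain ⟨c, hc, hcM, hcD⟩ := s1.factor hn hC1 m.2
    have h1 := hPmul ⟨c, hcM⟩ ⟨_, s1.DM hcD⟩ _ _ (hPC ⟨c, hcM⟩ hc) (hPD ⟨_, hcD⟩)
    have h2 : (⟨c, hcM⟩ : M1) * ⟨_, s1.DM hcD⟩ = m := by
      apply Subtype.ext
      change c * (c⁻¹ * (m : G)) = m
      group
    rw [h2] at h1
    rw [hχ _ _ h1, one_mul]
    exact ⟨_, rfl⟩
  have hcψ := s2.card_range
  have hfac : (n+1).factorial = n.factorial * (n + 1) := by rw [Nat.factorial_succ, mul_comm]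
  rcases alt_or_top (by omega) a1 with ⟨h1, h2⟩ | ⟨h1, h2⟩
  · left
    refine ⟨h2, ?_⟩
    have h3 : 2 * Nat.card s2.ψ.range = n.factorial := by
      have : 2 * Nat.card s2.ψ.range * (n + 1) = n.factorial * (n + 1) := by
        rw [← hfac, ← h2, hcr, ← hcψ]; ring
      exact Nat.eq_of_mul_eq_mul_right (by omega) this
    have h4 : s2.ψ.range = alternatingGroup (Fin n) := by
      rcases alt_or_top (k := n) (by omega) (s2.alt a2) with ⟨h5, _⟩ | ⟨_, h6⟩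
      · exact h5
      · exfalso
        have := Nat.factorial_pos n
        omega
    have h5 : Φ.range = (alternatingGroup (Fin (n+1))).prod (alternatingGroup (Fin n)) := by
      apply le_antisymm
      · rintro _ ⟨m, rfl⟩
        refine ⟨?_, ?_⟩
        · change s1.f m ∈ alternatingGroup (Fin (n+1))
          rw [← h1]; exact ⟨m, rfl⟩
        · change χ m ∈ alternatingGroup (Fin n)
          rw [← h4]; exact r5 m
      · rintro ⟨σ, τ⟩ ⟨h6, h7⟩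
        have e : ((σ, τ) : Perm (Fin (n+1)) × Perm (Fin n)) = (σ, 1) * (1, τ) := by ext <;> simp
        rw [e]
        exact Φ.range.mul_mem (r1 σ h6) (r2 τ h7)
    exact ⟨(e0.trans (MulEquiv.subgroupCongr h5)).trans (prodEquiv _ _)⟩
  · right
    refine ⟨h2, ?_⟩
    have h3 : Nat.card s2.ψ.range = n.factorial := by
      have : Nat.card s2.ψ.range * (n + 1) = n.factorial * (n + 1) := by
        rw [← hfac, ← h2, hcr, ← hcψ]
      exact Nat.eq_of_mul_eq_mul_right (by omega) this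
    have h4 : s2.ψ.range = ⊤ := by
      rcases alt_or_top (k := n) (by omega) (s2.alt a2) with ⟨_, h6⟩ | ⟨h5, _⟩
      · exfalso
        have := Nat.factorial_pos n
        omega
      · exact h5
    have r3 : ∀ σ : Perm (Fin (n+1)), ∃ τ, (σ, τ) ∈ Φ.range := by
      intro σ
      have : σ ∈ s1.f.range := by rw [h1]; exact mem_top σ
      obtain ⟨m, rfl⟩ := this
      exact ⟨χ m, m, rfl⟩
    have r4 : ∀ τ : Perm (Fin n), ∃ σ, (σ, τ) ∈ Φ.range := by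
      intro τ
      have : τ ∈ s2.ψ.range := by rw [h4]; exact mem_top τ
      obtain ⟨x, rfl⟩ := this
      refine ⟨s1.f ⟨x, s1.DM x.2⟩, ⟨x, s1.DM x.2⟩, ?_⟩
      change (s1.f ⟨x, s1.DM x.2⟩, χ ⟨x, s1.DM x.2⟩) = _
      rw [hχ _ _ (hPD x)]
    rcases sub_cases Φ.range r1 r2 r3 r4 (by omega) with h5 | h5
    · left
      exact ⟨(e0.trans (MulEquiv.subgroupCongr h5)).trans Subgroup.topEquiv⟩
    · right
      exact ⟨e0.trans (MulEquiv.subgroupCongr h5)⟩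

theorem Concl.transfer {n : ℕ} {M M' : Type*} [Group M] [Group M'] {c : ℕ} (e : M' ≃* M) (h : Concl n M c) : Concl n M' c := by
  rcases h with ⟨h1, ⟨e1⟩⟩ | ⟨h1, h2⟩
  · exact Or.inl ⟨h1, ⟨e.trans e1⟩⟩
  · rcases h2 with h2 | h2
    · obtain ⟨e1⟩ := h2
      exact Or.inr ⟨h1, Or.inl ⟨e.trans e1⟩⟩
    · obtain ⟨e1⟩ := h2
      exact Or.inr ⟨h1, Or.inr ⟨e.trans e1⟩⟩

theorem main [Finite G] {n : ℕ} (hn : 5 ≤ n) {M1 M2 D K1 K2 : Subgroup G} (s1 : Side n M1 D K1) (s2 : Side n M2 D K2)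
    (a1 : alternatingGroup (Fin (n+1)) ≤ s1.f.range)
    (hTW : TW M1 M2) (g : G) (hM : cj g M1 = M2)
    (hab : ∀ X : Subgroup G, X ≤ D → D ≤ normalizer (X : Set G) → X ≤ centralizer (X : Set G) → X = ⊥) (hK1 : K1 ≠ ⊥)
    (hd : coreIn M1 (K1 ⊓ K2) = ⊥ ∨ coreIn M2 (K1 ⊓ K2) = ⊥) : Concl n M1 (Nat.card s1.f.range) := by
  obtain ⟨a2, hK, hcr⟩ := other_side hn s1 s2 a1 g hM hd
  rcases hd with hd | hd
  · exact struct_of_core hn s1 s2 a1 a2 hcr hTW g hK hab hK1 hd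
  · have hK' : cj g⁻¹ K2 = K1 := by rw [← hK, cj_mul, inv_mul_cancel, cj_one]
    have hK2 : K2 ≠ ⊥ := by
      intro h; apply hK1; rw [← hK', h, cj_bot]
    rw [inf_comm] at hd
    have h := struct_of_core hn s2 s1 a2 a1 hcr.symm hTW.symm g⁻¹ hK' hab hK2 hd
    rw [hcr]
    have e : M1 ≃* M2 := (M1.equivMapOfInjective _ (MulAut.conj g).injective).trans (MulEquiv.subgroupCongr hM)
    exact h.transfer e

end Cfsg.Agent.H24.SubAlt
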