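import Cfsg.Agent.H24.SubAlt5
import Cfsg.Agent.S3693

/-!
Suborbits on which the stabiliser induces at least the alternating group.
-/

set_option autoImplicit false
open Equiv

namespace Cfsg.Agent.H24.SubAlt

open Subgroup Cfsg.Agent.H94

variable {G : Type*} [Group G]

/-- the action on a suborbit -/
theorem exists_side {Ω : Type*} [MulAction G Ω] (x y : Ω) (n : ℕ) (D : Subgroup G)
    (hDxy : D = MulAction.stabilizer G x ⊓ MulAction.stabilizer G y)
    (hi : D.relIndex (MulAction.stabilizer G x) = n + 1)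
    (e : MulAction.orbit (MulAction.stabilizer G x) y ≃ Fin (n+1)) :
    ∃ s : Side n (MulAction.stabilizer G x) D (coreIn (MulAction.stabilizer G x) D),
      s.f = (e.permCongrHom).toMonoidHom.comp
        (MulAction.toPermHom (MulAction.stabilizer G x) (MulAction.orbit (MulAction.stabilizer G x) y)) := by
  let M := MulAction.stabilizer G x
  let T := MulAction.toPermHom M (MulAction.orbit M y)
  let f : M →* Perm (Fin (n+1)) := (e.permCongrHom).toMonoidHom.comp T
  let y0 : MulAction.orbit M y := ⟨y, MulAction.mem_orbit_self y⟩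
  have DM : D ≤ M := by rw [hDxy]; exact inf_le_left
  have hT : ∀ (m : M) (z : MulAction.orbit M y), ((T m z : MulAction.orbit M y) : Ω) = (m : G) • (z : Ω) := fun m z => rfl
  have hf1 : ∀ m : M, f m = 1 ↔ T m = 1 := by
    intro m
    change e.permCongrHom (T m) = 1 ↔ _
    rw [map_eq_one_iff _ (MulEquiv.injective _)]
  have hf : ∀ m : M, f m = 1 ↔ (m : G) ∈ coreIn M D := by
    intro m
    rw [hf1, mem_coreIn]
    constructor
    · intro h
      refine ⟨m.2, fun k hk => ?_⟩
      have h0 : (⟨k, hk⟩ * m * (⟨k, hk⟩ : M)⁻¹) • y0 = y0 := by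
        have h1 : T (⟨k, hk⟩ * m * (⟨k, hk⟩ : M)⁻¹) = 1 := by rw [map_mul, map_mul, h, mul_one, map_inv, mul_inv_cancel]
        have h2 := congrArg (fun σ : Perm (MulAction.orbit M y) => σ y0) h1
        exact h2
      have h1 : (k * (m : G) * k⁻¹) • y = y := congrArg Subtype.val h0
      rw [hDxy]
      exact ⟨M.mul_mem (M.mul_mem hk m.2) (M.inv_mem hk), h1⟩
    · rintro ⟨_, h⟩
      ext ⟨z, ⟨k, rfl⟩⟩
      have h1 := h (k : G)⁻¹ (inv_mem k.2)
      rw [hDxy] at h1
      have h2 : ((k : G)⁻¹ * (m : G) * (k : G)⁻¹⁻¹) • y = y := h1.2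
      change (m : G) • ((k : G) • y) = (k : G) • y
      rw [inv_inv, mul_smul, mul_smul, inv_smul_eq_iff] at h2
      exact h2
  have hD : ∀ m : M, (m : G) ∈ D ↔ f m (e y0) = e y0 := by
    intro m
    have h1 : f m (e y0) = e (T m y0) := by
      change e.permCongr (T m) (e y0) = _
      rw [permCongr_apply, symm_apply_apply]
    rw [h1, e.apply_eq_iff_eq, hDxy, mem_inf]
    constructor
    · rintro ⟨_, h⟩
      exact Subtype.ext h
    · intro h
      exact ⟨m.2, congrArg Subtype.val h⟩
  obtain ⟨ψ, hψ, halt⟩ := exists_psi DM f (e y0) hD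
  exact ⟨{ f := f, i0 := e y0, ψ := ψ, hf := hf, hD := hD, hψ := fun z => (hψ z).trans (hf _), DM := DM,
           KD := coreIn_le_right _ _, Kn := le_normalizer_coreIn _ _, idx := hi, alt := halt }, rfl⟩

theorem alt_not_nilp {n : ℕ} (hn : 5 ≤ n) (Y : Subgroup (Perm (Fin n))) (h : alternatingGroup (Fin n) ≤ Y) :
    ¬ Group.IsNilpotent Y := by
  intro hY
  have h1 : Group.IsSolvable Y := inferInstance
  have h2 : Group.IsSolvable (alternatingGroup (Fin n)) := solvable_of_solvable_injective (inclusion_injective h)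
  have h3 : commutator (alternatingGroup (Fin n)) = ⊤ := by
    apply commutator_alternatingGroup_eq_top
    simpa using hn
  have h4 : Nontrivial (alternatingGroup (Fin n)) := by
    rw [nontrivial_iff_ne_bot]
    exact alt_ne_bot (by omega)
  have h5 := Group.IsSolvable.commutator_lt_top_of_nontrivial (alternatingGroup (Fin n))
  rw [h3] at h5
  exact lt_irrefl _ h5

/-- If `π : A → E` is onto and `ψ : A → S_n` has the same kernel and image containing `A_n` then `F(E) = 1`. -/
theorem fitting_bot [Finite G] {n : ℕ} (hn : 5 ≤ n) {E : Type*} [Group E] (π : G →* E) (hπ : Function.Surjective π)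
    (ψ : G →* Perm (Fin n)) (hk : ∀ x, ψ x = 1 ↔ π x = 1) (ha : alternatingGroup (Fin n) ≤ ψ.range) :
    Cfsg.fittingSubgroup E = ⊥ := by
  have hEfin : Finite E := Finite.of_surjective _ hπ
  let j : E →* Perm (Fin n) := π.liftOfSurjective hπ ⟨ψ, fun x hx => (hk x).mpr hx⟩
  have hj : ∀ x, j (π x) = ψ x := fun x => MonoidHom.liftOfRightInverse_comp_apply _ _ _ ⟨ψ, fun x hx => (hk x).mpr hx⟩ x
  have hinj : Function.Injective j := by
    rw [injective_iff_map_eq_one]
    intro y hy
    obtain ⟨x, rfl⟩ := hπ y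
    rw [hj] at hy
    exact (hk x).mp hy
  have hn' : alternatingGroup (Fin n) ≤ normalizer ((Cfsg.fittingSubgroup E).map j : Set (Perm (Fin n))) := by
    intro σ hσ
    obtain ⟨x, rfl⟩ := ha hσ
    have h1 : π x ∈ normalizer (Cfsg.fittingSubgroup E : Set E) := by
      rw [Subgroup.normalizer_eq_top (H := Cfsg.fittingSubgroup E)]; exact mem_top _
    have h2 : j (π x) ∈ (normalizer (Cfsg.fittingSubgroup E : Set E)).map j := ⟨_, h1, rfl⟩
    rw [hj] at h2
    exact le_normalizer_map j h2
  rcases alt_dich hn _ hn' with h | h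
  · rwa [map_eq_bot_iff_of_injective _ hinj] at h
  · exfalso
    have h1 : Group.IsNilpotent (Cfsg.fittingSubgroup E) := Cfsg.Agent.Solv.fitting_isNilpotent
    apply alt_not_nilp hn _ h
    exact Group.nilpotent_of_mulEquiv ((Cfsg.fittingSubgroup E).equivMapOfInjective j hinj)

end Cfsg.Agent.H24.SubAlt
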